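import Cfsg.Agent.H490.Der2

/-!
# TEAM GEN: few derivations when `-1` is in the group, `p` odd; transport along a homomorphism (helper490)
-/

set_option autoImplicit false

namespace Cfsg.Agent.H490.Der

open Cfsg.Agent.H440.TwoGen Cfsg.Agent.H891.Gen Subgroup

variable {H V : Type*} [Group H] [AddCommGroup V] [DistribMulAction H V]

/-- `p` odd, a central involution acting as `-1` -/
theorem small_of_neg [Finite H] [Finite V] [Nontrivial V] {p : ℕ} (hp : p.Prime) (hp2 : p ≠ 2)
    (hV : ∀ v : V, p • v = 0) {ε : H} (hc : ∀ g : H, ε * g = g * ε) (h2 : ε ^ 2 = 1) (hε : ∀ v : V, ε • v = -v) :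
    Small H V := by
  have hn : (zpowers ε).Normal := by
    refine ⟨fun x hx g => ?_⟩
    obtain ⟨k, rfl⟩ := mem_zpowers_iff.1 hx
    have h1 : Commute g (ε ^ k) := (Commute.zpow_right (show Commute g ε from (hc g).symm) k)
    have h3 : g * ε ^ k * g⁻¹ = ε ^ k := by rw [h1.eq, mul_inv_cancel_right]
    rw [h3]
    exact zpow_mem (mem_zpowers ε) k
  refine small_of_normal (zpowers ε) ?_ (small_of_coprime hp hV ?_)
  · intro v hv
    have h1 := hv ε (mem_zpowers ε)
    rw [hε] at h1
    have h3 : 2 • v = 0 := by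
      rw [two_nsmul]
      nth_rewrite 1 [← h1]
      exact neg_add_cancel v
    have h4 : addOrderOf v ∣ 2 := addOrderOf_dvd_of_nsmul_eq_zero h3
    have h5 : addOrderOf v ∣ p := addOrderOf_dvd_of_nsmul_eq_zero (hV v)
    have h6 : addOrderOf v ∣ 1 := by
      have h7 : Nat.gcd 2 p = 1 := (Nat.coprime_primes Nat.prime_two hp).2 (Ne.symm hp2)
      rw [← h7]
      exact Nat.dvd_gcd h4 h5
    exact AddMonoid.addOrderOf_eq_one_iff.1 (Nat.dvd_one.1 h6)
  · rw [Nat.card_zpowers]
    intro h1
    have h3 : orderOf ε ∣ 2 := orderOf_dvd_of_pow_eq_one h2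
    exact hp2 ((Nat.prime_dvd_prime_iff_eq hp Nat.prime_two).1 (h1.trans h3))

/-- a homomorphism `φ : K →* H` with normal image, `V` equivariantly isomorphic to a module `W` of `K` -/
theorem small_of_map_normal' {K W : Type*} [Group K] [AddCommGroup W] [DistribMulAction K W] [Finite K] [Finite V]
    (φ : K →* H) (e : V ≃+ W) (hφ : ∀ (k : K) (v : V), e (φ k • v) = k • e v)
    (hn : ∀ (g : H) (k : K), ∃ k' : K, φ k * g = g * φ k') (hfix : ∀ v : W, (∀ k : K, k • v = v) → v = 0)
    (hK : Small K W) : Small H V := by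
  let _ : DistribMulAction K V := DistribMulAction.compHom V φ
  have h1 : ∀ (k : K) (v : V), φ k • v = k • v := fun _ _ => rfl
  refine small_of_map_normal φ h1 hn ?_ (small_congr (MulEquiv.refl K) e.symm ?_ hK)
  · intro v hv
    have h2 := hfix (e v) fun k => by rw [← hφ, h1, hv]
    exact e.map_eq_zero_iff.1 h2
  · intro k w
    apply e.injective
    rw [e.apply_symm_apply]
    show _ = e (φ k • e.symm w)
    rw [hφ, e.apply_symm_apply]

end Cfsg.Agent.H490.Der
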