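import Cfsg.Agent.H490.Der

/-!
# TEAM GEN: the affine step in the language of `LGood` (helper490)
-/

set_option autoImplicit false

namespace Cfsg.Agent.H490.AffL

open Cfsg.Agent.H440.TwoGen Cfsg.Agent.H891.Gen Cfsg.Agent.H490.Der Subgroup MulAction

universe u v

/-- the underlying permutation -/
def toP {p : ℕ} {V : Type u} [AddCommGroup V] [Module (ZMod p) V] : (V ≃ₗ[ZMod p] V) →* Equiv.Perm V where
  toFun g := g.toEquiv
  map_one' := rfl
  map_mul' _ _ := rfl

/-- `LGood` of the linear group gives `AffGood` of the same group of permutations. -/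
theorem affGood_of_lgood {p : ℕ} [Fact p.Prime] {V : Type u} [AddCommGroup V] [Module (ZMod p) V] [Finite V]
    {H : Subgroup (Equiv.Perm V)} (hadd : ∀ h ∈ H, ∀ v w : V, h (v + w) = h v + h w)
    {G : Subgroup (V ≃ₗ[ZMod p] V)} (hG : ∀ g : V ≃ₗ[ZMod p] V, g ∈ G ↔ (g.toEquiv : Equiv.Perm V) ∈ H)
    (h : LGood G) : AffGood H := by
  obtain ⟨⟨x, y, hxy⟩, hs⟩ := h
  let Φ : (V ≃ₗ[ZMod p] V) →* Equiv.Perm V := toP
  have hlift : ∀ h ∈ H, ∃ g : V ≃ₗ[ZMod p] V, Φ g = h := by
    intro h hh
    let f : V →+ V := { toFun := h, map_zero' := by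
                          have := hadd h hh 0 0
                          rw [add_zero] at this
                          exact add_eq_left.1 this.symm, map_add' := hadd h hh }
    exact ⟨LinearEquiv.ofBijective (AddMonoidHom.toZModLinearMap p f) h.bijective, Equiv.ext fun v => rfl⟩
  have hmap : G.map Φ = H := by
    apply le_antisymm
    · rintro _ ⟨g, hg, rfl⟩
      exact (hG g).1 hg
    · intro h hh
      obtain ⟨g, rfl⟩ := hlift h hh
      exact ⟨g, (hG g).2 hh, rfl⟩
  have hcl : closure ({Φ x, Φ y} : Set (Equiv.Perm V)) = H := by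
    rw [← hmap, ← Set.image_pair, ← MonoidHom.map_closure]
    congr 1
    have h1 : (⊤ : Subgroup ↥G).map G.subtype = G := by
      rw [← MonoidHom.range_eq_map, Subgroup.range_subtype]
    conv_rhs => rw [← h1, ← hxy, MonoidHom.map_closure, Set.image_pair]
    rfl
  have hfin : Finite ↥G := by
    have : Finite (V ≃ₗ[ZMod p] V) := Finite.of_injective (fun g => (g : V → V)) DFunLike.coe_injective
    infer_instance
  obtain ⟨v, w, hvw⟩ := exists_pair hs x y
  refine ⟨Φ x, Φ y, hcl, v, w, ?_⟩
  rintro ⟨z, hz, hzx, hzy⟩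
  refine hvw ⟨fun g => z (Φ g), ?_, hzx, hzy⟩
  intro g g'
  have := hz (Φ g) ((hG g).1 g.2) (Φ g') ((hG g').1 g'.2)
  show z (Φ (g * g')) = z (Φ g) + g • z (Φ g')
  rw [map_mul, this]
  rfl

theorem affGood_of_lin {p : ℕ} [Fact p.Prime] {V : Type u} [AddCommGroup V] [Module (ZMod p) V] [Finite V]
    (H : Subgroup (Equiv.Perm V)) (hL : Lin p H)
    (rows : ∀ G : Subgroup (V ≃ₗ[ZMod p] V), (∀ v w : V, v ≠ 0 → w ≠ 0 → ∃ g ∈ G, g v = w) → LGood G) : AffGood H := by
  refine affGood_of_lgood (p := p) hL.add (G := H.comap toP) (fun g => Iff.rfl) (rows _ ?_)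
  intro v w hv hw
  obtain ⟨h, hh, hvw⟩ := hL.trans v w hv hw
  let f : V →+ V := { toFun := h, map_zero' := by
                        have := hL.add h hh 0 0
                        rw [add_zero] at this
                        exact add_eq_left.1 this.symm, map_add' := hL.add h hh }
  have h1 : toP (LinearEquiv.ofBijective (AddMonoidHom.toZModLinearMap p f) h.bijective) = h := Equiv.ext fun v => rfl
  exact ⟨_, by rw [mem_comap, h1]; exact hh, hvw⟩

/-- **The affine step**: if all transitive linear groups are `LGood` then affine 2-transitive groups are generated by two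
elements. -/
theorem twoGen_affine
    (rows : ∀ (p : ℕ) [Fact p.Prime] (V : Type u) [AddCommGroup V] [Module (ZMod p) V] [Finite V] [Nontrivial V]
      (G : Subgroup (V ≃ₗ[ZMod p] V)), (∀ v w : V, v ≠ 0 → w ≠ 0 → ∃ g ∈ G, g v = w) → LGood G)
    (G : Type u) (Ω : Type v) [Group G] [MulAction G Ω] (M : Subgroup G) (hG : Finite G) (hΩ : Finite Ω)
    (hf : FaithfulSMul G Ω) (h2 : MulAction.IsMultiplyPretransitive G Ω 2) (hM : M.Normal) (hne : M ≠ ⊥)
    (hab : ∀ x ∈ M, ∀ y ∈ M, x * y = y * x) : TwoGen G := by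
  refine AffStep.affineStep G Ω M hG hΩ hf h2 hM hne hab ?_
  intro V _ p H hL
  have hp := Fact.mk hL.prime
  have hfin := hL.fin
  have hnt : Nontrivial V := by
    obtain ⟨v, hv⟩ := hL.ne
    exact ⟨v, 0, hv⟩
  let _ : Module (ZMod p) V := AddCommGroup.zmodModule hL.tors
  exact affGood_of_lin H hL (fun G => rows p V G)

end Cfsg.Agent.H490.AffL
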