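import Cfsg.Agent.H490.SmallSL2
import Cfsg.Agent.H99.GenLinSL

/-!
# TEAM GEN: the row `LinRows.sl` (helper490, helper99)
-/

set_option autoImplicit false

namespace Cfsg.Agent.H490.GenSL

open Cfsg.Agent.H891.Gen Module

universe u

/-- `LinRows.sl` : `SL(V) ≤ G ≤ ΓL(V)`. -/
theorem lin_sl : ∀ (p : ℕ) [Fact p.Prime] (V : Type u) [AddCommGroup V] [Module (ZMod p) V] [Finite V]
    (G : Subgroup (V ≃ₗ[ZMod p] V)) (F : Type) [Field F] [Fintype F] [Module F V], 2 ≤ finrank F V →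
    (finrank F V = 2 → 4 ≤ Fintype.card F) → SemiL F G →
    (∀ g : V ≃ₗ[F] V, LinearEquiv.det g = 1 → ∃ h ∈ G, ∀ v, h v = g v) → LGood G := by
  intro p _ V _ _ _ G F _ _ _ h2 h4 hS hSL
  exact ⟨Cfsg.Agent.H99.GenSL.twoGen_sl p V G F h2 h4 hS hSL, SmallSL.small_of_sl G F h2 h4 hS hSL⟩

end Cfsg.Agent.H490.GenSL
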