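import Cfsg.Agent.H490.Der

/-!
# TEAM GEN: few derivations for Steinberg pairs (helper490)

`H = ⟨h, y⟩`, `h` of order prime to `p`, `x = [h, y h y⁻¹]` with a nonzero norm (`p = 2`: `x` an involution which acts
nontrivially).  Then there are fewer than `|V| ^ 2` derivations: `small_of_steinberg`, `small_of_steinberg_two`.
-/

set_option autoImplicit false

namespace Cfsg.Agent.H490.Der

open Cfsg.Agent.H440.TwoGen Cfsg.Agent.H891.Gen Subgroup

variable {H V : Type*} [Group H] [AddCommGroup V] [DistribMulAction H V]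

/-- `g - 1` is surjective when `g` has no nonzero fixed vector -/
theorem exists_sub [Finite V] {g : H} (hg : ∀ v : V, g • v = v → v = 0) (w : V) : ∃ u : V, g • u - u = w := by
  have hinj : Function.Injective (fun u : V => g • u - u) := by
    intro u u' h
    have h1 : g • (u - u') = u - u' := by
      rw [smul_sub]
      have h2 : g • u - u = g • u' - u' := h
      rw [sub_eq_sub_iff_sub_eq_sub] at h2
      exact h2
    exact sub_eq_zero.1 (hg _ h1)
  exact (Finite.injective_iff_surjective.1 hinj) w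

theorem small_of_steinberg [Finite H] [Finite V] {p : ℕ} (hp : p.Prime) (hV : ∀ v : V, p • v = 0) {h y : H}
    (hhy : closure ({h, y} : Set H) = ⊤) {n : ℕ} (hn : h ^ n = 1) (hpn : ¬ p ∣ n) {m : ℕ}
    (hx : (h * (y * h * y⁻¹) * h⁻¹ * (y * h * y⁻¹)⁻¹) ^ m = 1) {w : V}
    (hw : ∑ i ∈ Finset.range m, (h * (y * h * y⁻¹) * h⁻¹ * (y * h * y⁻¹)⁻¹) ^ i • w ≠ 0) : Small H V := by
  by_cases hfix : ∃ v : V, v ≠ 0 ∧ h • v = v
  · obtain ⟨v, hv, hv'⟩ := hfix
    exact small_of_fixed hp hV hhy hn hpn hv hv'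
  push Not at hfix
  have hf : ∀ v : V, h • v = v → v = 0 := fun v hv => by
    by_contra h0
    exact hfix v h0 hv
  set k : H := y * h * y⁻¹ with hk
  have hkf : ∀ v : V, k • v = v → v = 0 := by
    intro v hv
    have h1 : h • (y⁻¹ • v) = y⁻¹ • v := by
      rw [hk, mul_smul, mul_smul] at hv
      exact (eq_inv_smul_iff.2 hv)
    have h2 := hf _ h1
    rwa [smul_eq_zero_iff_eq] at h2
  set x : H := h * k * h⁻¹ * k⁻¹ with hxdef
  obtain ⟨u, hu⟩ := exists_sub hf w
  obtain ⟨v0, hv0⟩ := exists_sub hkf (-u)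
  refine small_of_pair hhy ⟨0, v0, ?_⟩
  rintro ⟨z, hz, hzh, hzy⟩
  have e1 : z k = u := by
    rw [hk, hz, hz, hz.inv, hzh, hzy, smul_zero, add_zero, smul_neg, ← mul_smul, ← hk]
    have : v0 + -(k • v0) = -(k • v0 - v0) := by abel
    rw [this, hv0, neg_neg]
  have e2 : z h⁻¹ = 0 := by rw [hz.inv, hzh, smul_zero, neg_zero]
  have e3 : z x = h • u - x • u := by
    rw [hxdef, hz, hz, hz, e1, e2, hz.inv, e1, hzh, smul_zero, zero_add, add_zero, smul_neg, ← mul_smul,
      ← sub_eq_add_neg]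
  have e4 := hz.norm_eq_zero hx
  rw [e3] at e4
  apply hw
  -- the norm of `x` kills `x - 1`
  have e5 : ∀ v : V, ∑ i ∈ Finset.range m, x ^ i • (x • v) = ∑ i ∈ Finset.range m, x ^ i • v := by
    intro v
    have h1 : ∀ i, x ^ i • (x • v) = x ^ (i + 1) • v := fun i => by rw [pow_succ, smul_smul]
    rw [Finset.sum_congr rfl (fun i _ => h1 i)]
    have h2 := Finset.sum_range_succ (fun i => x ^ i • v) m
    have h3 := Finset.sum_range_succ' (fun i => x ^ i • v) m
    rw [h2] at h3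
    simp only [hx, pow_zero, one_smul] at h3
    exact (add_right_cancel h3).symm
  have e6 : ∑ i ∈ Finset.range m, x ^ i • w = ∑ i ∈ Finset.range m, x ^ i • (h • u - x • u) := by
    rw [← hu]
    simp only [smul_sub, Finset.sum_sub_distrib]
    rw [e5]
  rw [e6, e4]

/-- `p = 2`: a Steinberg pair whose commutator `[h, y h y⁻¹]` is an involution -/
theorem small_of_steinberg_two [Finite H] [Finite V] (hV : ∀ v : V, 2 • v = 0) {h y : H}
    (hhy : closure ({h, y} : Set H) = ⊤) {n : ℕ} (hn : h ^ n = 1) (hpn : Odd n)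
    (hx : (h * (y * h * y⁻¹) * h⁻¹ * (y * h * y⁻¹)⁻¹) ^ 2 = 1) {w : V}
    (hw : (h * (y * h * y⁻¹) * h⁻¹ * (y * h * y⁻¹)⁻¹) • w ≠ w) : Small H V := by
  refine small_of_steinberg Nat.prime_two hV hhy hn ?_ hx (w := w) ?_
  · rw [Nat.two_dvd_ne_zero, Nat.odd_iff.1 hpn]
  · rw [Finset.sum_range_succ, Finset.sum_range_one, pow_zero, pow_one, one_smul]
    intro h0
    apply hw
    have h2 := hV w
    rw [two_nsmul] at h2
    exact add_left_cancel (h0.trans h2.symm)

end Cfsg.Agent.H490.Der
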