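import Cfsg.Agent.H490.G2Gen
import Cfsg.Agent.H490.Der2
import Cfsg.Agent.H891.Gen.LinRows
import Cfsg.Agent.LieRecognition.FieldSemilinear

/-!
# TEAM GEN: the row `LinRows.g2` (helper490)

`G₂(F) ⊴ G ≤ ΓL_6(F)`, `F` of characteristic two with at least four elements, `C_G(G₂(F))` scalar: `G` is generated by
`z h` and `u n φ` (`z` generates the scalars, `φ` induces a field automorphism), and there are few derivations.
-/

set_option autoImplicit false

namespace Cfsg.Agent.H490.G2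

open Cfsg Cfsg.Lie Cfsg.Agent.ChevalleyStructure.Elts Cfsg.Agent.Schreier.ChevLocal
open Cfsg.Agent.H70.ChevFix Cfsg.Agent.H70.ChevField Cfsg.Agent.H70.OutCount
open Cfsg.Agent.H440.TwoGen Cfsg.Agent.H50.Her Cfsg.Agent.H891.Gen Module Subgroup

universe u

section Abs

variable {F : Type} [Field F] [Finite F] [CharP F 2] {Γ : Type u} [Group Γ]

/-- the pair, in the whole group -/
theorem twoGen_of [Finite Γ] (ι : K F →* Γ) (hι : Function.Injective ι) {G Z : Subgroup Γ} (hιG : ι.range ≤ G)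
    (hn : ∀ g ∈ G, ∀ k : K F, g * ι k * g⁻¹ ∈ ι.range) (hZG : Z ≤ G) (hZn : ∀ g ∈ G, ∀ z ∈ Z, g * z * g⁻¹ ∈ Z)
    (hZc : ∀ z ∈ Z, ∀ k : K F, z * ι k = ι k * z) (hZcyc : IsCyclic Z)
    (hC : ∀ g ∈ G, (∀ k : K F, g * ι k = ι k * g) → g ∈ Z) (hq : ∃ x : F, x ≠ 0 ∧ x ≠ 1) : TwoGen ↥G := by
  classical
  -- the automorphisms induced
  have hψ : ∀ g ∈ G, ∃ ψ : MulAut (K F), ∀ k, g * ι k * g⁻¹ = ι (ψ k) := by
    intro g hg
    choose f hf using fun k => hn g hg k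
    choose f' hf' using fun k => hn g⁻¹ (G.inv_mem hg) k
    refine ⟨{ toFun := f, invFun := f', left_inv := fun k => hι ?_, right_inv := fun k => hι ?_,
              map_mul' := fun a b => hι ?_ }, fun k => (hf k).symm⟩
    · rw [hf', hf]; group
    · rw [hf, hf']; group
    · rw [hf, map_mul, map_mul, hf, hf]; group
  -- the field automorphisms
  let R : Subgroup (F ≃+* F) :=
    { carrier := {τ | ∃ g ∈ G, ∃ α : MulAut (K F), IsField α τ ∧ ∀ k, g * ι k * g⁻¹ = ι (α k)}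
      one_mem' := ⟨1, G.one_mem, 1, fun r _ t => rfl, fun k => by simp⟩
      mul_mem' := by
        rintro τ τ' ⟨g, hg, α, hα, h⟩ ⟨g', hg', α', hα', h'⟩
        refine ⟨g * g', G.mul_mem hg hg', α * α', fun r hr t => ?_, fun k => ?_⟩
        · rw [MulAut.mul_apply, hα' r hr, hα r hr]; rfl
        · rw [MulAut.mul_apply, ← h, ← h']; group
      inv_mem' := by
        rintro τ ⟨g, hg, α, hα, h⟩
        refine ⟨g⁻¹, G.inv_mem hg, α⁻¹, fun r hr t => ?_, fun k => ?_⟩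
        · rw [MulAut.inv_def, MulEquiv.symm_apply_eq, hα r hr]
          congr 1
          exact (τ.apply_symm_apply t).symm
        · have h1 := h (α⁻¹ k)
          rw [MulAut.apply_inv_self] at h1
          rw [← h1]; group }
  have hcyc : IsCyclic (F ≃+* F) := LieRecognition.FieldSemilinear.isCyclic_ringAut F
  obtain ⟨⟨τ, hτR⟩, hτ⟩ := IsCyclic.exists_generator (α := ↥R)
  obtain ⟨Φ, hΦG, α, hα, hΦ⟩ := hτR
  obtain ⟨⟨z, hzZ⟩, hz⟩ := IsCyclic.exists_generator (α := ↥Z)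
  obtain ⟨k, hk'⟩ := IsCyclic.exists_generator (α := Fˣ)
  have hk1 : (k : F) ≠ 1 := by
    intro h0
    obtain ⟨x, hx0, hx1⟩ := hq
    have hk2 : k = 1 := Units.ext h0
    obtain ⟨n, hn⟩ := hk' (Units.mk0 x hx0)
    have hn' : k ^ n = Units.mk0 x hx0 := hn
    rw [hk2, one_zpow] at hn'
    exact hx1 (congrArg Units.val hn').symm
  have hz2 := hZn Φ hΦG z hzZ
  have hzz : z * (Φ * z * Φ⁻¹) = (Φ * z * Φ⁻¹) * z := by
    have : IsMulCommutative ↥Z := inferInstance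
    have h1 := mul_comm' (⟨z, hzZ⟩ : ↥Z) ⟨_, hz2⟩
    exact congrArg Subtype.val h1
  have key := trick ι hα (hZc z hzZ) (hZc _ hz2) hzz hΦ hk' hk1
  have mh : ι (hk F k) ∈ closure ({z * ι (hk F k), ι (xe hD 4 1 * nw F) * Φ} : Set Γ) := key ⟨_, rfl⟩
  have mu : ι (xe hD 4 1 * nw F) ∈ closure ({z * ι (hk F k), ι (xe hD 4 1 * nw F) * Φ} : Set Γ) := key ⟨_, rfl⟩
  have mz : z ∈ closure ({z * ι (hk F k), ι (xe hD 4 1 * nw F) * Φ} : Set Γ) := by
    have := mul_mem (subset_closure (show z * ι (hk F k) ∈ _ by simp)) (inv_mem mh)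
    rwa [mul_inv_cancel_right] at this
  have mΦ : Φ ∈ closure ({z * ι (hk F k), ι (xe hD 4 1 * nw F) * Φ} : Set Γ) := by
    have := mul_mem (inv_mem mu) (subset_closure (show ι (xe hD 4 1 * nw F) * Φ ∈ _ by simp))
    rwa [inv_mul_cancel_left] at this
  have mZ : Z ≤ closure ({z * ι (hk F k), ι (xe hD 4 1 * nw F) * Φ} : Set Γ) := by
    intro x hx
    obtain ⟨n, hn⟩ := hz ⟨x, hx⟩
    have hn' : z ^ n = x := congrArg Subtype.val hn
    rw [← hn']
    exact zpow_mem mz n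
  apply H136.TwoGen.of_ambient
  refine ⟨z * ι (hk F k), ι (xe hD 4 1 * nw F) * Φ, G.mul_mem (hZG hzZ) (hιG ⟨_, rfl⟩),
    G.mul_mem (hιG ⟨_, rfl⟩) hΦG, ?_⟩
  intro g hg
  obtain ⟨ψ, hψ⟩ := hψ g hg
  obtain ⟨x, σ, β, hβ, rfl⟩ := aut_eq hq ψ
  -- `ι x⁻¹ g` induces `β`
  have h1 : ∀ y, (ι x⁻¹ * g) * ι y * (ι x⁻¹ * g)⁻¹ = ι (β y) := by
    intro y
    have h2 := hψ y
    rw [MulAut.mul_apply, MulAut.conj_apply] at h2
    calc (ι x⁻¹ * g) * ι y * (ι x⁻¹ * g)⁻¹ = ι x⁻¹ * (g * ι y * g⁻¹) * (ι x⁻¹)⁻¹ := by group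
      _ = _ := by rw [h2, ← map_inv, ← map_mul, ← map_mul]; congr 1; group
  have h2 : σ ∈ R := ⟨_, G.mul_mem (hιG ⟨_, rfl⟩) hg, β, hβ, h1⟩
  obtain ⟨n, hn⟩ := hτ ⟨σ, h2⟩
  have hn' : τ ^ n = σ := congrArg Subtype.val hn
  -- `Φ ^ n` induces `β`, too
  have h3 : ∀ n : ℤ, IsField (α ^ n) (τ ^ n) := by
    have h4 : ∀ m : ℕ, IsField (α ^ m) (τ ^ m) := by
      intro m
      induction m with
      | zero => intro r _ t; rfl
      | succ m ih =>
        intro r hr t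
        rw [pow_succ, MulAut.mul_apply, hα r hr, ih r hr, pow_succ]; rfl
    intro n
    obtain ⟨m, rfl | rfl⟩ := n.eq_nat_or_neg
    · rw [zpow_natCast, zpow_natCast]; exact h4 m
    · intro r hr t
      rw [zpow_neg, zpow_natCast, zpow_neg, zpow_natCast, MulAut.inv_def, MulEquiv.symm_apply_eq, h4 m r hr]
      congr 1
      exact ((τ ^ m).apply_symm_apply t).symm
  have h4 : ∀ n : ℤ, ∀ y, Φ ^ n * ι y * (Φ ^ n)⁻¹ = ι ((α ^ n) y) := by
    have h5 : ∀ m : ℕ, ∀ y, Φ ^ m * ι y * (Φ ^ m)⁻¹ = ι ((α ^ m) y) := by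
      intro m
      induction m with
      | zero => intro y; simp
      | succ m ih =>
        intro y
        rw [pow_succ, pow_succ, MulAut.mul_apply, ← ih, ← hΦ]; group
    intro n y
    obtain ⟨m, rfl | rfl⟩ := n.eq_nat_or_neg
    · rw [zpow_natCast, zpow_natCast]; exact h5 m y
    · rw [zpow_neg, zpow_natCast, zpow_neg, zpow_natCast]
      have h6 := h5 m ((α ^ m)⁻¹ y)
      rw [MulAut.apply_inv_self] at h6
      rw [← h6]; group
  have h5 : β = α ^ n := by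
    have h6 := h3 n
    rw [hn'] at h6
    apply ext_values hD
    · intro i t
      have hi : chevG2.simple i < 12 := Cfsg.Agent.S1042.simple_lt hD i.2
      rw [hβ _ hi, h6 _ hi]
    · intro i t
      have hi : chevG2.neg (chevG2.simple i) < 12 := neg_simple_lt hD i.2
      rw [hβ _ hi, h6 _ hi]
  have h6 : (Φ ^ n)⁻¹ * (ι x⁻¹ * g) ∈ Z := by
    apply hC _ (G.mul_mem (G.inv_mem (zpow_mem hΦG n)) (G.mul_mem (hιG ⟨_, rfl⟩) hg))
    intro y
    have h7 := h1 y
    rw [h5, ← h4] at h7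
    rw [← mul_inv_eq_iff_eq_mul]
    calc (Φ ^ n)⁻¹ * (ι x⁻¹ * g) * ι y * ((Φ ^ n)⁻¹ * (ι x⁻¹ * g))⁻¹
        = (Φ ^ n)⁻¹ * ((ι x⁻¹ * g) * ι y * (ι x⁻¹ * g)⁻¹) * Φ ^ n := by group
      _ = ι y := by rw [h7]; group
  have h7 : g = ι x * Φ ^ n * ((Φ ^ n)⁻¹ * (ι x⁻¹ * g)) := by
    rw [map_inv]; group
  rw [h7]
  exact mul_mem (mul_mem (key ⟨_, rfl⟩) (zpow_mem mΦ n)) (mZ h6)

/-- the pure pair in `G₂(F)` itself -/
theorem exists_pure_pair (hq : ∃ x : F, x ≠ 0 ∧ x ≠ 1) : ∃ h y : K F, closure ({h, y} : Set (K F)) = ⊤ ∧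
    (∃ n : ℕ, h ^ n = 1 ∧ Odd n) ∧ (h * (y * h * y⁻¹) * h⁻¹ * (y * h * y⁻¹)⁻¹) ^ 2 = 1 ∧
    h * (y * h * y⁻¹) * h⁻¹ * (y * h * y⁻¹)⁻¹ ≠ 1 := by
  classical
  obtain ⟨k, hk'⟩ := IsCyclic.exists_generator (α := Fˣ)
  have hk1 : (k : F) ≠ 1 := by
    intro h0
    obtain ⟨x, hx0, hx1⟩ := hq
    have hk2 : k = 1 := Units.ext h0
    obtain ⟨n, hn⟩ := hk' (Units.mk0 x hx0)
    have hn' : k ^ n = Units.mk0 x hx0 := hn
    rw [hk2, one_zpow] at hn'
    exact hx1 (congrArg Units.val hn').symm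
  have key := trick (MonoidHom.id (K F)) (z := 1) (Φ := 1) (α := 1) (τ := RingEquiv.refl F) (fun _ _ _ => rfl)
    (by simp) (by simp) (by simp) (by simp) hk' hk1
  refine ⟨hk F k, xe hD 4 1 * nw F, ?_, ⟨Nat.card Fˣ, ?_, ?_⟩, ?_, ?_⟩
  · rw [eq_top_iff]
    intro x _
    have := key ⟨x, rfl⟩
    simpa using this
  · show (he hD (chevG2.simple 1) (k : F)) ^ Nat.card Fˣ = 1
    apply Subtype.ext
    rw [SubmonoidClass.coe_pow, coe_he, H135.TwoG.hG_eq_hh hD (by decide : 1 < chevG2.rank), ← map_pow, pow_card_eq_one', map_one]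
    rfl
  · have := Fintype.ofFinite F
    rw [Nat.card_units, Nat.card_eq_fintype_card]
    have h3 : 2 ∣ Fintype.card F := (CharP.cast_eq_zero_iff F 2 _).1 (Nat.cast_card_eq_zero F)
    have h4 : 0 < Fintype.card F := Fintype.card_pos
    rw [Nat.odd_iff]
    omega
  · rw [comm_eq, pow_two, ← xe_add]
    have h2 : (2 : F) = 0 := CharTwo.two_eq_zero
    have : ((k : F) - 1) * (1 - (k : F)) + ((k : F) - 1) * (1 - (k : F)) = 0 := by
      linear_combination ((k : F) - 1) * (1 - (k : F)) * h2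
    rw [this, xe_zero]
  · rw [comm_eq]
    intro h
    exact mul_ne_zero (sub_ne_zero.2 hk1) (sub_ne_zero.2 (Ne.symm hk1)) (xe_eq_one hD (by decide : 4 < chevG2.nroots) h)

end Abs

/-- **The row `g2`.** -/
theorem lin_g2 (V : Type u) [AddCommGroup V] [Module (ZMod 2) V] [Finite V]
    (G L : Subgroup (V ≃ₗ[ZMod 2] V)) (F : Type) [Field F] [Fintype F] [Module F V]
    (htr : ∀ v w : V, v ≠ 0 → w ≠ 0 → ∃ g ∈ G, g v = w) (hdim : finrank F V = 6) (hF : 4 ≤ Fintype.card F)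
    (hsem : SemiL F G) (hLG : L ≤ G) (hnor : Nor G L) (hlin : ∀ g ∈ L, ∀ (c : F) (v : V), g (c • v) = c • g v)
    (hC : ∀ g ∈ G, (∀ h ∈ L, g * h = h * g) → ∃ c : F, ∀ v, g v = c • v)
    (hL : Nonempty (L ≃* Cfsg.Lie.chevG2.group F)) : LGood G := by
  classical
  obtain ⟨e⟩ := hL
  have hnt : Nontrivial V := by
    apply Module.nontrivial_of_finrank_pos (R := F)
    omega
  obtain ⟨v0, hv0⟩ := exists_ne (0 : V)
  have hV2 : ∀ v : V, 2 • v = 0 := by
    intro v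
    have h1 : ((2 : ℕ) : ZMod 2) • v = 2 • v := Nat.cast_smul_eq_nsmul (ZMod 2) 2 v
    rw [← h1]
    have : ((2 : ℕ) : ZMod 2) = 0 := by decide
    rw [this, zero_smul]
  have h2F : (2 : F) = 0 := by
    have h1 : (2 : F) • v0 = 0 := by
      rw [two_smul, ← two_nsmul]; exact hV2 v0
    exact (smul_eq_zero.1 h1).resolve_right hv0
  have hchar : CharP F 2 := CharTwo.of_one_ne_zero_of_two_eq_zero one_ne_zero h2F
  have hq : ∃ x : F, x ≠ 0 ∧ x ≠ 1 := by
    by_contra hcon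
    push Not at hcon
    have : Fintype.card F ≤ Fintype.card (Fin 2) := by
      apply Fintype.card_le_of_surjective (fun i : Fin 2 => if i = 0 then (0 : F) else 1)
      intro x
      by_cases hx : x = 0
      · exact ⟨0, by simp [hx]⟩
      · exact ⟨1, by simp [hcon x hx]⟩
    rw [Fintype.card_fin] at this
    omega
  let ι : K F →* (V ≃ₗ[ZMod 2] V) := L.subtype.comp e.symm.toMonoidHom
  have hι : Function.Injective ι := L.subtype_injective.comp e.symm.injective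
  have hιr : ι.range = L := by
    ext g
    constructor
    · rintro ⟨k, rfl⟩
      exact (e.symm k).2
    · intro hg
      exact ⟨e ⟨g, hg⟩, by show ((e.symm (e ⟨g, hg⟩) : L) : V ≃ₗ[ZMod 2] V) = g; rw [e.symm_apply_apply]⟩
  have hfinΓ : Finite (V ≃ₗ[ZMod 2] V) := Finite.of_injective (fun g => (g : V → V)) DFunLike.coe_injective
  have hfinK : Finite (K F) := Finite.of_injective ι hι
  obtain ⟨h, y, hhy, ⟨n, hn, hodd⟩, hx2, hx1⟩ := exists_pure_pair hq
  set x := h * (y * h * y⁻¹) * h⁻¹ * (y * h * y⁻¹)⁻¹ with hx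
  -- scalars
  let Z : Subgroup (V ≃ₗ[ZMod 2] V) :=
    { carrier := {g | g ∈ G ∧ ∃ c : F, ∀ v, g v = c • v}
      one_mem' := ⟨G.one_mem, 1, fun v => (one_smul F v).symm⟩
      mul_mem' := by
        rintro a b ⟨ha, c, hc⟩ ⟨hb, d, hd⟩
        exact ⟨G.mul_mem ha hb, c * d, fun v => by rw [LinearEquiv.mul_apply, hd, hc, smul_smul]⟩
      inv_mem' := by
        rintro a ⟨ha, c, hc⟩
        have hc0 : c ≠ 0 := by
          rintro rfl
          have := hc v0
          rw [zero_smul] at this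
          exact hv0 (a.map_eq_zero_iff.1 this)
        refine ⟨G.inv_mem ha, c⁻¹, fun v => ?_⟩
        apply a.injective
        have h1 : a (a⁻¹ v) = v := by rw [← LinearEquiv.mul_apply, mul_inv_cancel]; rfl
        rw [h1, hc, smul_smul, mul_inv_cancel₀ hc0, one_smul] }
  have hZcyc : IsCyclic Z := by
    choose c hc using fun z : Z => z.2.2
    have hc0 : ∀ z, c z ≠ 0 := by
      intro z h0
      have := hc z v0
      rw [h0, zero_smul] at this
      exact hv0 ((z : V ≃ₗ[ZMod 2] V).map_eq_zero_iff.1 this)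
    have hmul : ∀ a b, c (a * b) = c a * c b := by
      intro a b
      have h1 := hc (a * b) v0
      rw [Subgroup.coe_mul, LinearEquiv.mul_apply, hc, hc, smul_smul] at h1
      exact smul_left_injective F hv0 h1.symm
    let f : Z →* Fˣ := MonoidHom.mk' (fun z => Units.mk0 (c z) (hc0 z)) (fun a b => Units.ext (hmul a b))
    refine isCyclic_of_injective f ?_
    intro a b hab
    apply Subtype.ext
    apply LinearEquiv.ext
    intro v
    have h1 : c a = c b := congrArg Units.val hab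
    rw [hc, hc, h1]
  refine ⟨?_, ?_⟩
  · refine twoGen_of (Z := Z) ι hι (hιr ▸ hLG) ?_ (fun z hz => hz.1) ?_ ?_ hZcyc ?_ hq
    · intro g hg k
      rw [hιr]
      exact hnor g hg _ (hιr ▸ (⟨k, rfl⟩ : ι k ∈ ι.range))
    · rintro g hg z ⟨hz, c, hc⟩
      obtain ⟨σ, hσ⟩ := hsem g hg
      refine ⟨G.mul_mem (G.mul_mem hg hz) (G.inv_mem hg), σ c, fun v => ?_⟩
      rw [LinearEquiv.mul_apply, LinearEquiv.mul_apply, hc, hσ, ← LinearEquiv.mul_apply, mul_inv_cancel]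
      rfl
    · rintro z ⟨hz, c, hc⟩ k
      apply LinearEquiv.ext
      intro v
      rw [LinearEquiv.mul_apply, LinearEquiv.mul_apply, hc, hc, hlin _ (hιr ▸ (⟨k, rfl⟩ : ι k ∈ ι.range))]
    · intro g hg hgk
      refine ⟨hg, hC g hg fun h hh => ?_⟩
      rw [← hιr] at hh
      obtain ⟨k, rfl⟩ := hh
      exact hgk k
  · -- few derivations
    let _ : DistribMulAction (K F) V := DistribMulAction.compHom V ι
    have hact : ∀ (k : K F) (v : V), k • v = ι k v := fun _ _ => rfl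
    let j : K F →* ↥G := MonoidHom.mk' (fun k => ⟨ι k, hLG (hιr ▸ (⟨k, rfl⟩ : ι k ∈ ι.range))⟩)
      (fun a b => Subtype.ext (map_mul ι a b))
    have hxw : ∃ w : V, x • w ≠ w := by
      by_contra hcon
      push Not at hcon
      apply hx1
      apply hι
      rw [map_one]
      exact LinearEquiv.ext hcon
    obtain ⟨w, hw⟩ := hxw
    have hsmall : Small (K F) V := H490.Der.small_of_steinberg_two hV2 hhy hn hodd hx2 hw
    refine H490.Der.small_of_map_normal j (fun k v => rfl) ?_ ?_ hsmall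
    · intro g k
      have h1 : (g : V ≃ₗ[ZMod 2] V)⁻¹ * ι k * (g : V ≃ₗ[ZMod 2] V) ∈ L := by
        have := hnor (g : V ≃ₗ[ZMod 2] V)⁻¹ (G.inv_mem g.2) (ι k) (hιr ▸ (⟨k, rfl⟩ : ι k ∈ ι.range))
        rwa [inv_inv] at this
      rw [← hιr] at h1
      obtain ⟨k', hk'⟩ := h1
      refine ⟨k', Subtype.ext ?_⟩
      show ι k * (g : V ≃ₗ[ZMod 2] V) = g * ι k'
      rw [hk']; group
    · intro v hv
      by_contra hv0
      apply hw
      by_cases hw0 : w = 0
      · rw [hw0, smul_zero]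
      · obtain ⟨g, hg, rfl⟩ := htr v w hv0 hw0
        have h1 : g⁻¹ * ι x * g ∈ L := by
          have := hnor g⁻¹ (G.inv_mem hg) (ι x) (hιr ▸ (⟨x, rfl⟩ : ι x ∈ ι.range))
          rwa [inv_inv] at this
        rw [← hιr] at h1
        obtain ⟨k', hk'⟩ := h1
        have h2 : ι k' v = v := hv k'
        rw [hact]
        have h3 : ι x * g = g * ι k' := by rw [hk']; group
        rw [← LinearEquiv.mul_apply, h3, LinearEquiv.mul_apply, h2]

end Cfsg.Agent.H490.G2
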