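import Mathlib

/-!
# The (twisted) Steinberg trick, abstract form (helper490)

`A` a subgroup of `Γ` (a root group), `h` (a torus element), `n` an element with `h' = n h n⁻¹` commuting with `h`, both
normalising `A`; `u ∈ A`, `y = u n`.  Then `[h, y h y⁻¹] = [h, a] ∈ A` with `a = [u, h']`; if the conjugates of this
element under the powers of `h` generate a group containing `A` then `⟨h, y⟩` contains `A` and `n`.
-/

set_option autoImplicit false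

namespace Cfsg.Agent.H490.Stein

open Subgroup

variable {Γ : Type*} [Group Γ]

theorem comm_eq {h n u : Γ} (hc : Commute h (n * h * n⁻¹)) :
    h * ((u * n) * h * (u * n)⁻¹) * h⁻¹ * ((u * n) * h * (u * n)⁻¹)⁻¹ =
      h * (u * (n * h * n⁻¹) * u⁻¹ * (n * h * n⁻¹)⁻¹) * h⁻¹ * (u * (n * h * n⁻¹) * u⁻¹ * (n * h * n⁻¹)⁻¹)⁻¹ := by
  set k := n * h * n⁻¹ with hk
  have h1 : (u * n) * h * (u * n)⁻¹ = u * k * u⁻¹ := by rw [hk]; group
  rw [h1]
  have h2 : k * h⁻¹ * k⁻¹ = h⁻¹ := by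
    have : k * h⁻¹ = h⁻¹ * k := ((Commute.inv_left hc).eq).symm
    rw [this]; group
  calc h * (u * k * u⁻¹) * h⁻¹ * (u * k * u⁻¹)⁻¹
      = h * (u * k * u⁻¹ * k⁻¹) * (k * h⁻¹ * k⁻¹) * (u * k * u⁻¹ * k⁻¹)⁻¹ := by group
    _ = _ := by rw [h2]

/-- **Steinberg's trick.** -/
theorem steinberg {A : Subgroup Γ} {h n u : Γ} (hc : Commute h (n * h * n⁻¹)) (hu : u ∈ A)
    (hspan : A ≤ closure (Set.range fun i : ℕ => h ^ i * (h * (u * (n * h * n⁻¹) * u⁻¹ * (n * h * n⁻¹)⁻¹) * h⁻¹ *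
      (u * (n * h * n⁻¹) * u⁻¹ * (n * h * n⁻¹)⁻¹)⁻¹) * (h ^ i)⁻¹)) :
    A ≤ closure ({h, u * n} : Set Γ) ∧ n ∈ closure ({h, u * n} : Set Γ) := by
  have hh : h ∈ closure ({h, u * n} : Set Γ) := subset_closure (by simp)
  have hy : u * n ∈ closure ({h, u * n} : Set Γ) := subset_closure (by simp)
  have hA : A ≤ closure ({h, u * n} : Set Γ) := by
    refine hspan.trans ((closure_le _).2 ?_)
    rintro _ ⟨i, rfl⟩
    show h ^ i * (h * (u * (n * h * n⁻¹) * u⁻¹ * (n * h * n⁻¹)⁻¹) * h⁻¹ *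
      (u * (n * h * n⁻¹) * u⁻¹ * (n * h * n⁻¹)⁻¹)⁻¹) * (h ^ i)⁻¹ ∈ closure ({h, u * n} : Set Γ)
    rw [← comm_eq hc]
    have h1 : (u * n) * h * (u * n)⁻¹ ∈ closure ({h, u * n} : Set Γ) := mul_mem (mul_mem hy hh) (inv_mem hy)
    exact mul_mem (mul_mem (pow_mem hh _) (mul_mem (mul_mem (mul_mem hh h1) (inv_mem hh)) (inv_mem h1)))
      (inv_mem (pow_mem hh _))
  refine ⟨hA, ?_⟩
  have := mul_mem (inv_mem (hA hu)) hy
  rwa [inv_mul_cancel_left] at this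

end Cfsg.Agent.H490.Stein
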