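import Cfsg.Agent.H490.Der3
import Cfsg.Agent.H490.Stein
import Cfsg.Agent.H99.GenLiftSL

/-!
# TEAM GEN: few derivations for the natural module of `SL_d(q)` (helper490)
-/

set_option autoImplicit false

namespace Cfsg.Agent.H490.SmallSL

open Matrix Cfsg.Agent.H490 Cfsg.Agent.H891.Gen Cfsg.Agent.H99.GenSL Cfsg.Agent.H490.Der
open scoped Fin.NatCast Fin.CommRing

section Pair

variable {F : Type*} [Field F] {n : ℕ} {Γ : Type*} [Group Γ] {j : GL (Fin (n + 1)) F →* Γ} {σ : F ≃+* F} {f : Γ}

/-- the Steinberg pair with prescribed diagonal element (extracted from `H99.GenSL.lift_gl`) -/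
theorem range_le_closure [Fintype F] (hn : 1 ≤ n)
    (hf : ∀ A, f * j A * f⁻¹ = j (GeneralLinearGroup.map (σ : F →+* F) A))
    (hj' : ∀ s t : F, j (tv (ne_succ hn 0) s) = j (tv (ne_succ hn 0) t) → s = t)
    {M : GL (Fin (n + 1)) F} {m : Fin (n + 1) → Fˣ} (hM : Mono M (cyc n) m) {c : Fin (n + 1) → Fˣ} {z : Fˣ}
    (hz : ∀ u : Fˣ, u ∈ Subgroup.zpowers z) (hc01 : c 0 = c 1 * z ∨ c 0 = c 1 * z ^ 2) (hcne : c 0 ≠ c 1)
    (hcl : c (Fin.last n) ≠ c 0) :
    (j.comp SpecialLinearGroup.toGL).range ≤
      Subgroup.closure ({j (dg c), j (tv (ne_succ hn 0) 1) * (j M * f)} : Set Γ) := by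
  have hw : (j M * f) * j (dg c) * (j M * f)⁻¹ =
      j (dg fun i => Units.map ((σ : F →+* F) : F →* F) (c ((cyc n).symm i))) := by
    rw [conj_w hf, map_dg, conj_dg hM]
  set c' : Fin (n + 1) → Fˣ := fun i => Units.map ((σ : F →+* F) : F →* F) (c ((cyc n).symm i)) with hc'
  have hconj : ∀ s : F, j (dg c) * j (tv (ne_succ hn 0) s) * (j (dg c))⁻¹ =
      j (tv (ne_succ hn 0) ((c 0 : F) * ((c (0 + 1))⁻¹ : Fˣ) * s)) := by
    intro s
    rw [← map_mul, ← map_inv, ← map_mul, conj_dg_tv]
    congr 2
    ring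
  have hconj' : ∀ s : F, j (dg c') * j (tv (ne_succ hn 0) s) * (j (dg c'))⁻¹ =
      j (tv (ne_succ hn 0) ((c' 0 : F) * s * ((c' (0 + 1))⁻¹ : Fˣ))) := by
    intro s
    rw [← map_mul, ← map_inv, ← map_mul, conj_dg_tv]
  have ha : (c 0 : F) * ((c (0 + 1))⁻¹ : Fˣ) = z ∨ (c 0 : F) * ((c (0 + 1))⁻¹ : Fˣ) = (z : F) ^ 2 := by
    rw [zero_add]
    rcases hc01 with h3 | h3
    · left
      rw [h3, ← Units.val_mul, mul_comm (c 1), mul_inv_cancel_right]
    · right
      rw [h3, ← Units.val_mul, mul_comm (c 1), mul_inv_cancel_right, Units.val_pow_eq_pow_val]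
  have ha1 : (c 0 : F) * ((c (0 + 1))⁻¹ : Fˣ) ≠ 1 := by
    rw [← Units.val_mul]
    intro e
    apply hcne
    have h3 : c 0 * (c (0 + 1))⁻¹ = 1 := Units.ext e
    rw [zero_add, mul_inv_eq_one] at h3
    exact h3
  have hc'1 : c' 0 ≠ c' (0 + 1) := by
    intro e
    apply hcl
    have h3 : (cyc n).symm 0 = Fin.last n := by
      rw [Equiv.symm_apply_eq]
      exact (Fin.last_add_one n).symm
    have h4 : c' 0 = Units.map ((σ : F →+* F) : F →* F) (c (Fin.last n)) := by
      show Units.map ((σ : F →+* F) : F →* F) (c ((cyc n).symm 0)) = _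
      rw [h3]
    have h5 : c' (0 + 1) = Units.map ((σ : F →+* F) : F →* F) (c 0) := by
      show Units.map ((σ : F →+* F) : F →* F) (c ((cyc n).symm (0 + 1))) = _
      rw [cyc_symm_apply]
    rw [h4, h5] at e
    have h6 := congrArg Units.val e
    exact Units.ext (σ.injective h6)
  have key := Cfsg.Agent.H136.TwoGen.torus_trick
    (Subgroup.closure ({j (dg c), j (tv (ne_succ hn 0) 1) * (j M * f)} : Set Γ)) (X j hn) (h := j (dg c))
    (w := j M * f) (u := j (tv (ne_succ hn 0) 1)) (Subgroup.subset_closure (by simp))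
    (Subgroup.subset_closure (by simp)) ⟨1, rfl⟩
    (by
      rintro _ ⟨s, rfl⟩
      rw [hw]
      exact ⟨_, hconj' s⟩)
    (by
      rintro _ ⟨s, rfl⟩
      rw [hw]
      refine ⟨((c' 0)⁻¹ : Fˣ) * s * (c' (0 + 1)), ?_⟩
      have h3 := hconj' (((c' 0)⁻¹ : Fˣ) * s * (c' (0 + 1)))
      have h4 : (c' 0 : F) * (((c' 0)⁻¹ : Fˣ) * s * (c' (0 + 1))) * ((c' (0 + 1))⁻¹ : Fˣ) = s := by
        rw [← mul_assoc, ← mul_assoc, Units.mul_inv, one_mul, Units.mul_inv_cancel_right]
      rw [h4] at h3
      rw [← h3]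
      group)
    (fun Y hY hhY => X_irr j hn hz ha hconj Y hY hhY)
    ⟨j (tv (ne_succ hn 0) 1), ⟨1, rfl⟩, by
      intro e
      have h3 := hconj 1
      rw [e, mul_inv_cancel_right] at h3
      have h4 := hj' _ _ h3
      rw [mul_one] at h4
      exact ha1 h4.symm⟩
    (by
      rintro _ ⟨s, rfl⟩
      exact ⟨_, hconj s⟩)
    (by
      rw [hw, ← map_mul, ← map_mul, dg_comm])
    (by
      rw [hw]
      intro e
      have h3 := hconj' 1
      rw [e, mul_inv_cancel_right] at h3
      have h4 := hj' _ _ h3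
      rw [mul_one, ← Units.val_mul] at h4
      apply hc'1
      rw [← mul_inv_eq_one]
      exact (Units.ext h4).symm)
  exact range_le hn hf hM _ key.1 key.2

end Pair

/-! ### the action of `SL` on column vectors -/

section Act

variable {ι F : Type*} [Fintype ι] [DecidableEq ι] [Field F]

/-- `SL` acts on column vectors -/
@[reducible] def actSL : DistribMulAction (SpecialLinearGroup ι F) (ι → F) where
  smul g v := (g.1 : Matrix ι ι F) *ᵥ v
  one_smul v := one_mulVec v
  mul_smul g h v := (mulVec_mulVec v g.1 h.1).symm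
  smul_zero _ := mulVec_zero _
  smul_add _ _ _ := mulVec_add _ _ _

attribute [local instance] actSL

theorem smul_def (g : SpecialLinearGroup ι F) (v : ι → F) : g • v = (g.1 : Matrix ι ι F) *ᵥ v := rfl

theorem closure_eq_top {x y : SpecialLinearGroup ι F} {x' y' : GL ι F} (hx : SpecialLinearGroup.toGL x = x')
    (hy : SpecialLinearGroup.toGL y = y')
    (h : ((MonoidHom.id (GL ι F)).comp SpecialLinearGroup.toGL).range ≤ Subgroup.closure ({x', y'} : Set (GL ι F))) :
    Subgroup.closure ({x, y} : Set (SpecialLinearGroup ι F)) = ⊤ := by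
  apply Subgroup.map_injective (f := SpecialLinearGroup.toGL (n := ι) (R := F)) SpecialLinearGroup.toGL_injective
  rw [MonoidHom.map_closure, Set.image_pair, hx, hy]
  refine le_antisymm ?_ ?_
  · rw [Subgroup.closure_le]
    rintro z (rfl | hz)
    · exact ⟨x, Subgroup.mem_top _, hx⟩
    · rw [Set.mem_singleton_iff] at hz
      subst hz
      exact ⟨y, Subgroup.mem_top _, hy⟩
  · rw [← MonoidHom.range_eq_map]
    exact h

theorem exists_toGL {A : GL ι F} (hA : GeneralLinearGroup.det A = 1) :
    ∃ a : SpecialLinearGroup ι F, SpecialLinearGroup.toGL a = A :=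
  ⟨⟨A.1, congrArg Units.val hA⟩, Units.ext rfl⟩

end Act

section Main

variable {F : Type*} [Field F] [Fintype F] {n : ℕ}

attribute [local instance] actSL

omit [Fintype F] in
theorem det_tv (hn : 1 ≤ n) (s : F) : GeneralLinearGroup.det (tv (ne_succ hn 0) s) = 1 := by
  apply Units.ext
  exact Matrix.det_transvection_of_ne _ _ (ne_succ hn 0) s

omit [Fintype F] in
theorem tv_smul (hn : 1 ≤ n) {s : F} (hs : s ≠ 0) {x : SpecialLinearGroup (Fin (n + 1)) F}
    (hx : SpecialLinearGroup.toGL x = tv (ne_succ hn 0) s) :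
    x • (Pi.single (0 + 1) 1 : Fin (n + 1) → F) ≠ Pi.single (0 + 1) 1 := by
  have h1 : x.1 = 1 + single 0 (0 + 1) s := by
    have := congrArg Units.val hx
    exact this
  intro h
  rw [smul_def, h1, add_mulVec, one_mulVec, add_eq_left] at h
  have h2 := congrFun h 0
  rw [mulVec_single_one] at h2
  simp at h2
  exact hs h2

/-- `SL_d(q)` has few derivations on its natural module. -/
theorem small_sl (hn : 1 ≤ n) (h2 : n = 1 → 4 ≤ Fintype.card F) :
    Cfsg.Agent.H891.Gen.Small (SpecialLinearGroup (Fin (n + 1)) F) (Fin (n + 1) → F) := by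
  classical
  obtain ⟨p, hp⟩ := CharP.exists F
  obtain ⟨k, hpp, hcard⟩ := FiniteField.card F p
  have hV : ∀ v : Fin (n + 1) → F, p • v = 0 := by
    intro v
    ext i
    rw [Pi.smul_apply, nsmul_eq_mul, CharP.cast_eq_zero F p, zero_mul, Pi.zero_apply]
  -- the monomial element
  obtain ⟨W, hW⟩ := exists_mono (F := F) (cyc n) (fun _ => 1)
  obtain ⟨m, M, hM, hMd⟩ : ∃ (m : Fin (n + 1) → Fˣ) (M : GL (Fin (n + 1)) F), Mono M (cyc n) m ∧
      GeneralLinearGroup.det M = 1 := by
    refine ⟨_, _, mono_mul_dg hW (Pi.mulSingle 0 ((GeneralLinearGroup.det W)⁻¹)), ?_⟩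
    rw [map_mul, det_dg, Finset.prod_pi_mulSingle', if_pos (Finset.mem_univ _), mul_inv_cancel]
  have hj' : ∀ s t : F, (MonoidHom.id (GL (Fin (n + 1)) F)) (tv (ne_succ hn 0) s) =
      (MonoidHom.id (GL (Fin (n + 1)) F)) (tv (ne_succ hn 0) t) → s = t := by
    intro s t h
    have h1 := congrArg Units.val h
    have h3 : (1 + single 0 (0 + 1) s : Matrix (Fin (n + 1)) (Fin (n + 1)) F) = 1 + single 0 (0 + 1) t := h1
    have h4 := congrFun (congrFun h3 0) (0 + 1)
    rw [Matrix.add_apply, Matrix.add_apply, single_apply_same, single_apply_same] at h4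
    exact add_left_cancel h4
  have hf : ∀ A, (1 : GL (Fin (n + 1)) F) * (MonoidHom.id (GL (Fin (n + 1)) F)) A * 1⁻¹ =
      (MonoidHom.id (GL (Fin (n + 1)) F)) (GeneralLinearGroup.map ((RingEquiv.refl F : F ≃+* F) : F →+* F) A) := by
    intro A
    rw [inv_one, mul_one, one_mul]
    apply Units.ext
    rfl
  have hrange : ∀ {c : Fin (n + 1) → Fˣ} {z : Fˣ}, (∀ u : Fˣ, u ∈ Subgroup.zpowers z) →
      (c 0 = c 1 * z ∨ c 0 = c 1 * z ^ 2) → c 0 ≠ c 1 → c (Fin.last n) ≠ c 0 →
      ((MonoidHom.id (GL (Fin (n + 1)) F)).comp SpecialLinearGroup.toGL).range ≤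
        Subgroup.closure ({dg c, tv (ne_succ hn 0) 1 * M} : Set (GL (Fin (n + 1)) F)) := by
    intro c z hz h3 h4 h5
    have := range_le_closure (j := MonoidHom.id (GL (Fin (n + 1)) F)) (σ := RingEquiv.refl F) (f := 1) hn hf hj' hM
      hz h3 h4 h5
    rwa [mul_one] at this
  obtain ⟨y, hy⟩ := exists_toGL (A := tv (ne_succ hn 0) 1 * M) (by rw [map_mul, det_tv hn, hMd, mul_one])
  rcases Nat.lt_or_ge (Fintype.card F) 3 with hF | hF
  · -- `|F| = 2`
    have hc2 : Fintype.card F = 2 := le_antisymm (by omega) Fintype.one_lt_card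
    have hp2 : p = 2 := by
      rw [hc2] at hcard
      exact ((Nat.prime_dvd_prime_iff_eq hpp Nat.prime_two).1 (hcard ▸ dvd_pow_self p k.ne_zero))
    subst hp2
    have hF2 : ∀ s : F, s = 0 ∨ s = 1 := by
      intro s
      by_contra hcon
      push Not at hcon
      have h3 : ({0, 1, s} : Finset F).card ≤ Fintype.card F := Finset.card_le_univ _
      rw [Finset.card_insert_of_notMem, Finset.card_insert_of_notMem, Finset.card_singleton] at h3
      · omega
      · rw [Finset.mem_singleton]
        exact fun e => hcon.2 e.symm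
      · simp only [Finset.mem_insert, Finset.mem_singleton, not_or]
        exact ⟨zero_ne_one, fun e => hcon.1 e.symm⟩
    obtain ⟨x, hx⟩ := exists_toGL (A := tv (ne_succ hn 0) (1 : F)) (det_tv hn 1)
    obtain ⟨w, hw⟩ := exists_toGL (A := M) hMd
    have hcl : Subgroup.closure ({x, w} : Set (SpecialLinearGroup (Fin (n + 1)) F)) = ⊤ := by
      refine closure_eq_top hx hw ?_
      have hXle : X (MonoidHom.id (GL (Fin (n + 1)) F)) hn ≤
          Subgroup.closure ({tv (ne_succ hn 0) 1, M} : Set (GL (Fin (n + 1)) F)) := by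
        rintro _ ⟨s, rfl⟩
        rcases hF2 s with rfl | rfl
        · rw [tv_zero, map_one]
          exact Subgroup.one_mem _
        · exact Subgroup.subset_closure (by simp)
      refine range_le (f := 1) (σ := RingEquiv.refl F) hn hf hM _ hXle ?_
      rw [mul_one]
      exact Subgroup.subset_closure (by simp)
    refine small_of_involution hV hcl ?_ (tv_smul hn one_ne_zero hx)
    apply SpecialLinearGroup.toGL_injective
    rw [map_pow, hx, sq, tv_mul, map_one]
    have : (1 : F) + 1 = 0 := by
      have := CharP.cast_eq_zero F 2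
      rw [← this]; norm_num
    rw [this, tv_zero]
  · obtain ⟨c, z, hz, hcd, hc01, hcne, hcl⟩ := exists_diag hn hF h2 1
    have hord : ∀ c : Fin (n + 1) → Fˣ, (dg c) ^ (Fintype.card F - 1) = 1 := by
      intro c
      have h3 : ∀ k : ℕ, (dg c) ^ k = dg (c ^ k) := by
        intro k
        induction k with
        | zero =>
          rw [pow_zero, pow_zero]
          apply Units.ext
          show (1 : Matrix (Fin (n + 1)) (Fin (n + 1)) F) = diagonal fun i => (((1 : Fin (n + 1) → Fˣ) i : Fˣ) : F)
          simp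
        | succ k ih => rw [pow_succ, ih, dg_mul, pow_succ]
      rw [h3]
      have h4 : c ^ (Fintype.card F - 1) = 1 := by
        funext i
        rw [Pi.pow_apply, Pi.one_apply, ← Fintype.card_units]
        exact pow_card_eq_one
      rw [h4]
      apply Units.ext
      show (diagonal fun i => (((1 : Fin (n + 1) → Fˣ) i : Fˣ) : F)) = (1 : Matrix (Fin (n + 1)) (Fin (n + 1)) F)
      simp
    have hpn : ¬ p ∣ Fintype.card F - 1 := by
      intro h
      have h3 : p ∣ Fintype.card F := by rw [hcard]; exact dvd_pow_self p k.ne_zero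
      have h4 : p ∣ 1 := by
        have := (Nat.dvd_sub h3 h)
        rwa [Nat.sub_sub_self (by omega)] at this
      exact hpp.one_lt.ne' (Nat.dvd_one.1 h4)
    by_cases hp2 : p = 2
    · -- characteristic two
      subst hp2
      obtain ⟨h, hh⟩ := exists_toGL (A := dg c) (by rw [det_dg, hcd])
      have hcl' := closure_eq_top hh hy (hrange hz hc01 hcne hcl)
      have hone : (1 : F) + 1 = 0 := by
        have := CharP.cast_eq_zero F 2
        rw [← this]; norm_num
      have hxx : ∃ t : F, t ≠ 0 ∧ SpecialLinearGroup.toGL (h * (y * h * y⁻¹) * h⁻¹ * (y * h * y⁻¹)⁻¹) =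
          tv (ne_succ hn 0) t := by
        have e1 : M * dg c * M⁻¹ = dg (fun i => c ((cyc n).symm i)) := conj_dg hM c
        set c' : Fin (n + 1) → Fˣ := fun i => c ((cyc n).symm i) with hc'
        have e2 : tv (ne_succ hn 0) 1 * (M * dg c * M⁻¹) * (tv (ne_succ hn 0) 1)⁻¹ * (M * dg c * M⁻¹)⁻¹ =
            tv (ne_succ hn 0) (1 + (c' 0 : F) * (-1) * ((c' (0 + 1))⁻¹ : Fˣ)) := by
          rw [e1, ← tv_mul, ← conj_dg_tv c' (ne_succ hn 0) (-1), ← tv_inv]
          group
        have e3 : ∀ s : F, dg c * tv (ne_succ hn 0) s * (dg c)⁻¹ * (tv (ne_succ hn 0) s)⁻¹ =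
            tv (ne_succ hn 0) ((c 0 : F) * s * ((c (0 + 1))⁻¹ : Fˣ) + -s) := by
          intro s
          rw [conj_dg_tv, tv_inv, tv_mul]
        refine ⟨(c 0 : F) * (1 + (c' 0 : F) * (-1) * ((c' (0 + 1))⁻¹ : Fˣ)) * ((c (0 + 1))⁻¹ : Fˣ) +
          -(1 + (c' 0 : F) * (-1) * ((c' (0 + 1))⁻¹ : Fˣ)), ?_, ?_⟩
        rotate_left
        · rw [map_mul, map_mul, map_mul, map_inv, map_inv, map_mul, map_mul, map_inv, hh, hy]
          rw [Stein.comm_eq (by rw [e1]; exact dg_comm _ _), e2, e3]
        · have h5 : (cyc n).symm 0 = Fin.last n := by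
            rw [Equiv.symm_apply_eq]
            exact (Fin.last_add_one n).symm
          have h6 : c' 0 ≠ c' (0 + 1) := by
            show c ((cyc n).symm 0) ≠ c ((cyc n).symm (0 + 1))
            rw [h5, cyc_symm_apply]
            exact hcl
          have h7 : (1 : F) + (c' 0 : F) * (-1) * ((c' (0 + 1))⁻¹ : Fˣ) ≠ 0 := by
            intro h8
            apply h6
            rw [← mul_inv_eq_one]
            apply Units.ext
            rw [Units.val_mul, Units.val_one]
            linear_combination -h8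
          have h8 : (c 0 : F) * ((c (0 + 1))⁻¹ : Fˣ) ≠ 1 := by
            rw [← Units.val_mul]
            intro e
            apply hcne
            have h3 : c 0 * (c (0 + 1))⁻¹ = 1 := Units.ext e
            rw [zero_add, mul_inv_eq_one] at h3
            exact h3
          intro h9
          have h10 : ((c 0 : F) * ((c (0 + 1))⁻¹ : Fˣ) - 1) *
              (1 + (c' 0 : F) * (-1) * ((c' (0 + 1))⁻¹ : Fˣ)) = 0 := by linear_combination h9
          rcases mul_eq_zero.1 h10 with h11 | h11
          · exact h8 (sub_eq_zero.1 h11)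
          · exact h7 h11
      obtain ⟨t, ht, hx⟩ := hxx
      refine small_of_steinberg_two hV hcl' (n := Fintype.card F - 1) ?_ ?_ ?_ (tv_smul hn ht hx)
      · apply SpecialLinearGroup.toGL_injective
        rw [map_pow, hh, hord, map_one]
      · rw [← Nat.not_even_iff_odd, even_iff_two_dvd]
        exact hpn
      · apply SpecialLinearGroup.toGL_injective
        rw [map_pow, hx, sq, tv_mul, map_one, ← two_mul]
        have : (2 : F) = 0 := by rw [← hone]; norm_num
        rw [this, zero_mul, tv_zero]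
    · rcases Nat.lt_or_ge n 2 with hn2 | hn2
      · -- dimension two: the central involution
        obtain rfl : n = 1 := by omega
        obtain ⟨ε, hε⟩ : ∃ ε : SpecialLinearGroup (Fin (1 + 1)) F, ε.1 = -1 :=
          ⟨⟨-1, by rw [det_neg, det_one]; norm_num⟩, rfl⟩
        refine small_of_neg hpp hp2 hV (ε := ε) ?_ ?_ ?_
        · intro g
          apply Subtype.ext
          show ε.1 * g.1 = g.1 * ε.1
          rw [hε, neg_mul, mul_neg, one_mul, mul_one]
        · rw [pow_two]
          apply Subtype.ext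
          show ε.1 * ε.1 = 1
          rw [hε, neg_mul_neg, one_mul]
        · intro v
          rw [smul_def, hε, neg_mulVec, one_mulVec]
      · -- an element with a fixed vector
        have hz1 : z ≠ 1 := by
          intro e
          rcases hc01 with h3 | h3
          · exact hcne (by rw [h3, e, mul_one])
          · exact hcne (by rw [h3, e, one_pow, mul_one])
        have h10 : (1 : Fin (n + 1)) ≠ 0 := by
          have := ne_succ hn 0
          rw [zero_add] at this
          exact this.symm
        have hl1 : Fin.last n ≠ 1 := by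
          intro e
          have := congrArg Fin.val e
          rw [Fin.val_last, Fin.val_one'] at this
          rw [Nat.mod_eq_of_lt (by omega)] at this
          omega
        have hl0 : Fin.last n ≠ 0 := by
          intro e
          have := congrArg Fin.val e
          rw [Fin.val_last, Fin.val_zero] at this
          omega
        set d : Fin (n + 1) → Fˣ := Pi.mulSingle 1 z⁻¹ * Pi.mulSingle (Fin.last n) z with hd
        have hd0 : d 0 = 1 := by
          rw [hd, Pi.mul_apply, Pi.mulSingle_eq_of_ne h10.symm, Pi.mulSingle_eq_of_ne hl0.symm, one_mul]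
        have hd1 : d 1 = z⁻¹ := by
          rw [hd, Pi.mul_apply, Pi.mulSingle_eq_same, Pi.mulSingle_eq_of_ne hl1.symm, mul_one]
        have hdl : d (Fin.last n) = z := by
          rw [hd, Pi.mul_apply, Pi.mulSingle_eq_of_ne hl1, Pi.mulSingle_eq_same, one_mul]
        have hdp : ∏ i, d i = 1 := by
          simp only [hd, Pi.mul_apply, Finset.prod_mul_distrib, Finset.prod_pi_mulSingle', Finset.mem_univ, if_true]
          exact inv_mul_cancel z
        obtain ⟨h, hh⟩ := exists_toGL (A := dg d) (by rw [det_dg, hdp])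
        have hcl' := closure_eq_top hh hy (hrange (c := d) hz (Or.inl (by rw [hd0, hd1, inv_mul_cancel]))
          (by rw [hd0, hd1]; exact fun e => hz1 (inv_eq_one.1 e.symm)) (by rw [hd0, hdl]; exact hz1))
        refine small_of_fixed hpp hV hcl' (n := Fintype.card F - 1) ?_ hpn (v := Pi.single 0 1) ?_ ?_
        · apply SpecialLinearGroup.toGL_injective
          rw [map_pow, hh, hord, map_one]
        · intro e
          have := congrFun e 0
          simp at this
        · have h3 : h.1 = diagonal fun i => (d i : F) := congrArg Units.val hh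
          rw [smul_def, h3, mulVec_single_one]
          ext i
          simp only [Matrix.col_apply, diagonal_apply]
          by_cases hi : i = 0
          · subst hi
            simp [hd0]
          · simp [hi]

end Main

end Cfsg.Agent.H490.SmallSL
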