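import Cfsg.Agent.H490.SmallSL
import Cfsg.Agent.H891.Gen.LinMain

/-!
# TEAM GEN: few derivations for `SL(V) ≤ G ≤ ΓL(V)` (helper490)
-/

set_option autoImplicit false

namespace Cfsg.Agent.H490.SmallSL

open Matrix Cfsg.Agent.H490 Cfsg.Agent.H891.Gen Cfsg.Agent.H99.GenSL Cfsg.Agent.H490.Der Module
open scoped Fin.NatCast Fin.CommRing

universe u

attribute [local instance] actSL

/-- the linear map of a transvection matrix in coordinates -/
theorem transvection_mulVec {ι F : Type*} [Fintype ι] [DecidableEq ι] [Field F] {i j : ι} (hij : i ≠ j) (c : F)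
    (v : ι → F) : (SpecialLinearGroup.transvection hij c).1 *ᵥ v = v + Pi.single i (c * v j) := by
  show (1 + single i j c) *ᵥ v = _
  rw [add_mulVec, one_mulVec, single_mulVec]
  congr 1

theorem small_of_sl {p : ℕ} [hpf : Fact p.Prime] {V : Type u} [AddCommGroup V] [Module (ZMod p) V] [Finite V]
    (G : Subgroup (V ≃ₗ[ZMod p] V)) (F : Type) [Field F] [Fintype F] [Module F V] (hd : 2 ≤ finrank F V)
    (h2 : finrank F V = 2 → 4 ≤ Fintype.card F) (hS : SemiL F G)
    (hSL : ∀ g : V ≃ₗ[F] V, LinearEquiv.det g = 1 → ∃ h ∈ G, ∀ v, h v = g v) : Cfsg.Agent.H891.Gen.Small ↥G V := by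
  classical
  obtain ⟨n, hn⟩ : ∃ n, finrank F V = n + 1 := ⟨finrank F V - 1, by omega⟩
  have hn1 : 1 ≤ n := by omega
  have hfin : Module.Finite F V := Module.Finite.of_finite
  let e : V ≃ₗ[F] (Fin (n + 1) → F) := LinearEquiv.ofFinrankEq V (Fin (n + 1) → F) (by rw [hn, finrank_fin_fun])
  -- the linear map of a matrix
  have hex : ∀ A : SpecialLinearGroup (Fin (n + 1)) F, ∃ h : ↥G, ∀ v : V, e (h • v) = A • e v := by
    intro A
    let L : V ≃ₗ[F] V := (e.trans (SpecialLinearGroup.toLin' A)).trans e.symm
    have hL : LinearEquiv.det L = 1 := by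
      have h1 := LinearEquiv.det_conj (SpecialLinearGroup.toLin' A) e.symm
      have h3 : (e.symm.symm.trans (SpecialLinearGroup.toLin' A)).trans e.symm = L := rfl
      rw [h3] at h1
      rw [h1]
      apply Units.ext
      rw [LinearEquiv.coe_det]
      have h4 : ((SpecialLinearGroup.toLin' A : (Fin (n + 1) → F) ≃ₗ[F] (Fin (n + 1) → F)) :
          (Fin (n + 1) → F) →ₗ[F] (Fin (n + 1) → F)) = Matrix.toLin' A.1 := rfl
      rw [h4, LinearMap.det_toLin']
      exact A.2
    obtain ⟨h, hh, hv⟩ := hSL L hL
    refine ⟨⟨h, hh⟩, fun v => ?_⟩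
    show e (h v) = A • e v
    rw [hv]
    show e (e.symm (SpecialLinearGroup.toLin' A (e v))) = A • e v
    rw [e.apply_symm_apply]
    rfl
  choose φ0 hφ0 using hex
  have hext : ∀ g h : ↥G, (∀ v : V, g • v = h • v) → g = h := by
    intro g h hgh
    apply Subtype.ext
    exact LinearEquiv.ext hgh
  let φ : SpecialLinearGroup (Fin (n + 1)) F →* ↥G :=
    { toFun := φ0
      map_one' := by
        apply hext
        intro v
        apply e.injective
        rw [hφ0, one_smul, one_smul]
      map_mul' := by
        intro A B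
        apply hext
        intro v
        apply e.injective
        rw [hφ0, mul_smul, mul_smul, hφ0, hφ0] }
  have hφ : ∀ (A : SpecialLinearGroup (Fin (n + 1)) F) (v : V), e (φ A • v) = A • e v := hφ0
  have hfinG : Finite ↥G := by
    have : Finite (V ≃ₗ[ZMod p] V) := Finite.of_injective (fun g => (g : V → V)) DFunLike.coe_injective
    infer_instance
  refine small_of_map_normal' φ e.toAddEquiv hφ ?_ ?_ (small_sl hn1 (fun h => h2 (by rw [hn, h])))
  · intro g A
    -- the set of good `A` is a subgroup containing the transvections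
    let S : Subgroup (SpecialLinearGroup (Fin (n + 1)) F) :=
      { carrier := {A | ∃ A' : SpecialLinearGroup (Fin (n + 1)) F, φ A * g = g * φ A'}
        one_mem' := ⟨1, by rw [map_one, one_mul, mul_one]⟩
        mul_mem' := by
          rintro A B ⟨A', hA⟩ ⟨B', hB⟩
          exact ⟨A' * B', by rw [map_mul, map_mul, mul_assoc, hB, ← mul_assoc, hA, mul_assoc]⟩
        inv_mem' := by
          rintro A ⟨A', hA⟩
          refine ⟨A'⁻¹, ?_⟩
          rw [map_inv, map_inv, inv_mul_eq_iff_eq_mul, ← mul_assoc, hA, mul_inv_cancel_right] }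
    suffices hS : S = ⊤ by
      have : A ∈ S := by rw [hS]; trivial
      exact this
    rw [eq_top_iff, ← Cfsg.Agent.LieClassical.SLGen.closure_transvections, Subgroup.closure_le]
    rintro _ ⟨i, j, hij, c, rfl⟩
    obtain ⟨σ, hσ⟩ := hS g g.2
    -- the conjugate transvection
    let f : Dual F V :=
      { toFun := fun v => σ.symm (c * e (g • v) j)
        map_add' := by
          intro v w
          rw [smul_add, map_add, Pi.add_apply, mul_add, map_add]
        map_smul' := by
          intro a v
          have h1 : g • (a • v) = σ a • (g • v) := hσ a v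
          rw [h1, map_smul, Pi.smul_apply, smul_eq_mul, RingHom.id_apply, smul_eq_mul]
          rw [show c * (σ a * e (g • v) j) = σ a * (c * e (g • v) j) by ring, map_mul, σ.symm_apply_apply] }
    let w : V := g⁻¹ • e.symm (Pi.single i 1)
    have hfw : f w = 0 := by
      show σ.symm (c * e (g • w) j) = 0
      rw [smul_inv_smul, e.apply_symm_apply, Pi.single_eq_of_ne (Ne.symm hij), mul_zero, map_zero]
    let L : V ≃ₗ[F] V := LinearEquiv.transvection hfw
    have hL : LinearEquiv.det L = 1 := LinearEquiv.transvection.det_eq_one hfw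
    have hLv : ∀ v, L v = v + f v • w := fun v => rfl
    -- as a matrix
    let B : Matrix (Fin (n + 1)) (Fin (n + 1)) F := LinearMap.toMatrix' ((e.symm.trans L).trans e).toLinearMap
    have hB : B.det = 1 := by
      have h1 := LinearEquiv.det_conj L e
      have h3 := congrArg Units.val h1
      rw [hL, LinearEquiv.coe_det] at h3
      rw [← LinearMap.det_toMatrix'] at h3
      exact h3
    obtain ⟨B', hB'⟩ : ∃ B' : SpecialLinearGroup (Fin (n + 1)) F, B'.1 = B := ⟨⟨B, hB⟩, rfl⟩
    refine ⟨B', ?_⟩
    apply hext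
    intro v
    rw [mul_smul, mul_smul]
    have h4 : φ B' • v = L v := by
      apply e.injective
      rw [hφ, smul_def, hB']
      rw [← Matrix.toLin'_apply, Matrix.toLin'_toMatrix']
      show e (L (e.symm (e v))) = e (L v)
      rw [e.symm_apply_apply]
    rw [h4, hLv, smul_add]
    apply e.injective
    rw [hφ]
    show (SpecialLinearGroup.transvection hij c).1 *ᵥ e (g • v) = _
    rw [transvection_mulVec, map_add]
    congr 1
    have h5 : g • (f v • w) = σ (f v) • (g • w) := hσ _ _
    rw [h5, smul_inv_smul]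
    have h6 : e (σ (f v) • e.symm (Pi.single i 1)) = σ (f v) • (Pi.single i 1 : Fin (n + 1) → F) := by
      rw [map_smul, e.apply_symm_apply]
    rw [h6]
    have h7 : σ (f v) = c * e (g • v) j := σ.apply_symm_apply _
    rw [h7]
    ext k
    by_cases hk : k = i
    · subst hk
      simp
    · simp [hk]
  · intro v hv
    -- all coordinates vanish
    funext j
    obtain ⟨i, hij⟩ : ∃ i, i ≠ j := ⟨j + 1, (ne_succ hn1 j).symm⟩
    have h1 := hv (SpecialLinearGroup.transvection hij 1)
    have h3 := congrFun h1 i
    rw [smul_def, transvection_mulVec, Pi.add_apply, Pi.single_eq_same, one_mul, add_eq_left] at h3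
    exact h3

end Cfsg.Agent.H490.SmallSL
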